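import Cfsg.Agent.Lib.HalfTransP.Plane
import Cfsg.Agent.Lib.Thompson.CyclicNormalAbelian
import Cfsg.Agent.Lib.UniqueInvolution
import Cfsg.Agent.Lib.Involution.DihedralHom
import Cfsg.Prelude.Def_CaseTheorems

/-!
Half-transitive irreducible actions of 2-groups all whose normal elementary abelian subgroups have order
at most two; and the semiregular case in general.
-/

set_option autoImplicit false

namespace Cfsg.Agent.Lib.HalfTransP

open Cfsg.Agent.Lib.AvoidConj

universe u v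

variable {G : Type u} [Group G] [Finite G] {V : Type v} [AddCommGroup V] [Finite V]
  {ρ : G →* AddMonoid.End V} {p : ℕ} [hp : Fact p.Prime]

/-- A nontrivial normal subgroup of a `p`-group has a central element of order `p`. -/
theorem exists_central_mem {H : Type u} [Group H] [Finite H] (hH : IsPGroup p H) (N : Subgroup H) [hN : N.Normal]
    (hN1 : N ≠ ⊥) : ∃ z ∈ N, z ≠ 1 ∧ z ^ p = 1 ∧ ∀ g : H, g * z = z * g := by
  classical
  let S : Set (Subgroup H) := {M | M.Normal ∧ M ≤ N ∧ M ≠ ⊥}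
  obtain ⟨M, hM⟩ := (Set.toFinite S).exists_minimal ⟨N, hN, le_rfl, hN1⟩
  obtain ⟨hMn, hMN, hM1⟩ := hM.1
  haveI := hMn
  haveI : Group.IsNilpotent H := hH.isNilpotent
  obtain ⟨n, hn⟩ : ∃ n, (⊤ : Subgroup H).lowerCentralSeries n = ⊥ :=
    (Subgroup.isNilpotent_iff_lowerCentralSeries _).1 (hH.to_subgroup ⊤).isNilpotent
  have hne : ⁅M, (⊤ : Subgroup H)⁆ ≠ M := by
    intro hEq
    have hall : ∀ m, M ≤ (⊤ : Subgroup H).lowerCentralSeries m := fun m => by
      induction m with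
      | zero => exact le_top
      | succ m ih =>
        rw [Subgroup.lowerCentralSeries_succ]
        calc M = ⁅M, (⊤ : Subgroup H)⁆ := hEq.symm
          _ ≤ _ := Subgroup.commutator_mono ih le_rfl
    exact hM1 (le_bot_iff.1 (hn ▸ hall n))
  have hle : ⁅M, (⊤ : Subgroup H)⁆ ≤ M := Subgroup.commutator_le_left _ _
  have hbot : ⁅M, (⊤ : Subgroup H)⁆ = ⊥ := by
    by_contra h
    exact hne (le_antisymm hle (hM.2 ⟨Subgroup.commutator_normal _ _, hle.trans hMN, h⟩ hle))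
  obtain ⟨k, hk⟩ := IsPGroup.iff_card.1 (hH.to_subgroup M)
  have hk0 : k ≠ 0 := fun h => hM1 (Subgroup.card_eq_one.1 (by rw [hk, h, pow_zero]))
  obtain ⟨z, hz⟩ := exists_prime_orderOf_dvd_card' (G := M) p (hk ▸ dvd_pow_self p hk0)
  refine ⟨z, hMN z.2, fun h => ?_, ?_, fun g => ?_⟩
  · rw [show z = 1 from Subtype.ext h, orderOf_one] at hz
    exact hp.out.one_lt.ne hz
  · have h := pow_orderOf_eq_one z
    rw [hz] at h
    exact congrArg Subtype.val h
  · exact (Subgroup.commutator_eq_bot_iff_le_centralizer.1 hbot z.2 g (Subgroup.mem_top g))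

theorem free_of_central (hinj : ∀ g : G, ρ g = 1 → g = 1)
    (hirr : ∀ W : AddSubgroup V, (∀ g, ∀ v ∈ W, ρ g v ∈ W) → W = ⊥ ∨ W = ⊤)
    {z : G} (hz : z ≠ 1) (hc : ∀ g : G, g * z = z * g) {w : V} (hw : ρ z w = w) : w = 0 := by
  rcases hirr (fixedOf ρ ({z} : Set G)) (fun g v hv k hk => by
      rw [Set.mem_singleton_iff.1 hk, ← rho_mul, ← hc, rho_mul, hv z rfl]) with h | h
  · have : w ∈ fixedOf ρ ({z} : Set G) := fun k hk => by rw [Set.mem_singleton_iff.1 hk]; exact hw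
    rwa [h, AddSubgroup.mem_bot] at this
  · exact absurd (hinj z (AddMonoidHom.ext fun v =>
      (h ▸ AddSubgroup.mem_top v : v ∈ fixedOf ρ ({z} : Set G)) z rfl)) hz

/-- With a unique subgroup of order `p` all stabilisers are trivial. -/
theorem semi_of_unique (hG : IsPGroup p G) (hinj : ∀ g : G, ρ g = 1 → g = 1)
    (hirr : ∀ W : AddSubgroup V, (∀ g, ∀ v ∈ W, ρ g v ∈ W) → W = ⊥ ∨ W = ⊤)
    (huniq : ∀ y z : G, y ≠ 1 → y ^ p = 1 → z ≠ 1 → z ^ p = 1 → y ∈ Subgroup.zpowers z) : Semi ρ := by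
  intro v hv g hg
  by_contra hg1
  obtain ⟨k, hk⟩ := IsPGroup.iff_orderOf.1 hG g
  obtain ⟨m, rfl⟩ := Nat.exists_eq_succ_of_ne_zero (fun h : k = 0 => hg1 (by
    rw [h, pow_zero, orderOf_eq_one_iff] at hk; exact hk))
  have hyp : (g ^ p ^ m) ^ p = 1 := by rw [← pow_mul, ← pow_succ, ← hk, pow_orderOf_eq_one]
  have hy1 : g ^ p ^ m ≠ 1 := fun h => by
    have := orderOf_dvd_of_pow_eq_one h
    rw [hk] at this
    have := (Nat.pow_dvd_pow_iff_le_right hp.out.one_lt).1 this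
    omega
  haveI : Nontrivial G := ⟨⟨g, 1, hg1⟩⟩
  obtain ⟨z, -, hz1, hzp, hzc⟩ := exists_central_mem hG (⊤ : Subgroup G) (by
    exact (Subgroup.nontrivial_iff_ne_bot _).1 inferInstance)
  refine hv (free_of_central hinj hirr hz1 hzc ?_)
  exact fixed_zpowers ρ (fixed_pow ρ hg _) (huniq z (g ^ p ^ m) hz1 hzp hy1 hyp)

/-- The outcome for 2-groups without normal four-subgroups. -/
theorem two_group_cases {q : ℕ} [Fact q.Prime] [Module (ZMod q) V] {s : ℕ} (hq : q ≠ 2)
    (hG : IsPGroup 2 G) (hinj : ∀ g : G, ρ g = 1 → g = 1)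
    (hirr : ∀ W : AddSubgroup V, (∀ g, ∀ v ∈ W, ρ g v ∈ W) → W = ⊥ ∨ W = ⊤)
    (hcop : (2 : ℕ).Coprime (Nat.card V))
    (hhalf : ∀ v : V, v ≠ 0 → Nat.card (stab ρ v) = s)
    (hcyc : ∀ B : Subgroup G, B.Normal → (∀ a ∈ B, ∀ b ∈ B, a * b = b * a) → (∀ a ∈ B, a ^ 2 = 1) →
      Nat.card B ≤ 2) :
    Semi ρ ∨ (Nat.card V = q ^ 2 ∧ ∃ m : ℕ, q = 2 ^ m - 1 ∧
      (Nonempty (G ≃* DihedralGroup (2 ^ m)) ∨ (Cfsg.IsQuasiDihedral G ∧ Nat.card G = 2 ^ (m + 2)))) := by
  classical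
  haveI : Fact (Nat.Prime 2) := ⟨Nat.prime_two⟩
  by_cases hS : Semi ρ
  · exact Or.inl hS
  right
  have hn : ∀ A : Subgroup G, A.Normal → IsMulCommutative A → IsCyclic A := by
    intro A hA hAc
    haveI := hA
    let B : Subgroup G :=
      { carrier := {a | a ∈ A ∧ a ^ 2 = 1}
        one_mem' := ⟨one_mem _, one_pow _⟩
        mul_mem' := fun {a b} ha hb => ⟨mul_mem ha.1 hb.1, by
          rw [Commute.mul_pow (congrArg Subtype.val (hAc.is_comm.comm (⟨a, ha.1⟩ : A) ⟨b, hb.1⟩) : a * b = b * a),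
            ha.2, hb.2, one_mul]⟩
        inv_mem' := fun {a} ha => ⟨inv_mem ha.1, by rw [inv_pow, ha.2, inv_one]⟩ }
    have hBn : B.Normal := ⟨fun a ha g => ⟨hA.conj_mem a ha.1 g, by rw [conj_pow, ha.2, mul_one, mul_inv_cancel]⟩⟩
    have hBcard := hcyc B hBn (fun a ha b hb => congrArg Subtype.val (hAc.is_comm.comm (⟨a, ha.1⟩ : A) ⟨b, hb.1⟩))
      (fun a ha => ha.2)
    have key : ∀ H : Subgroup A, Nat.card H = 2 → H.map A.subtype = B := fun H hH => by
      refine Subgroup.eq_of_le_of_card_ge ?_ ?_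
      · rintro _ ⟨k, hk, rfl⟩
        refine ⟨k.2, ?_⟩
        have := pow_card_eq_one' (G := H) (x := ⟨k, hk⟩)
        rw [hH] at this
        simpa using congrArg (fun t : H => ((t : A) : G)) this
      · rw [Subgroup.card_map_of_injective A.subtype_injective, hH]; exact hBcard
    rcases Cfsg.Agent.Lib.UniqueInvolution.isCyclic_or_quaternion (p := 2) (G := A) (hG.to_subgroup A)
      (fun H K hH hK => Subgroup.map_injective A.subtype_injective ((key H hH).trans (key K hK).symm))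
      with h | ⟨-, n, hn, ⟨e⟩⟩
    · exact h
    · exfalso
      have e2 : 2 ^ n ≠ 1 := by
        have := Nat.one_lt_pow (by omega : n ≠ 0) (by norm_num : 1 < 2)
        omega
      have h1 := hAc.is_comm.comm (e.symm (QuaternionGroup.a 1)) (e.symm (QuaternionGroup.xa 0))
      rw [← map_mul, ← map_mul, e.symm.injective.eq_iff] at h1
      simp only [QuaternionGroup.a_mul_xa, QuaternionGroup.xa_mul_a] at h1
      have h2 : (0 : ZMod (2 * 2 ^ n)) - 1 = 0 + 1 := QuaternionGroup.xa.inj h1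
      have h3 : ((2 : ℕ) : ZMod (2 * 2 ^ n)) = 0 := by push_cast; linear_combination -h2
      rw [ZMod.natCast_eq_zero_iff] at h3
      exact e2 (by
        have := Nat.le_of_dvd (by norm_num) h3
        have := Nat.one_le_pow n 2 (by norm_num)
        omega)
  have hnc : ¬ IsCyclic G := fun hc => hS (semi_of_unique hG hinj hirr fun y z hy1 hy hz1 hz => by
    have hzc : Subgroup.zpowers y = Subgroup.zpowers z := by
      obtain ⟨g, hg⟩ := hc.exists_generator
      haveI := Fintype.ofFinite G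
      have hle2 := IsCyclic.card_pow_eq_one_le (α := G) (n := 2) (by norm_num)
      by_contra hne
      have hyz : y ≠ z := fun e => hne (by rw [e])
      have hsub : ({1, y, z} : Finset G) ⊆ Finset.univ.filter (fun a => a ^ 2 = 1) := by
        intro a ha
        simp only [Finset.mem_insert, Finset.mem_singleton] at ha
        rcases ha with rfl | rfl | rfl <;> simp [hy, hz]
      have h3 : ({1, y, z} : Finset G).card = 3 := Finset.card_eq_three.2 ⟨1, y, z, Ne.symm hy1, Ne.symm hz1, hyz, rfl⟩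
      have := (Finset.card_le_card hsub).trans hle2
      omega
    exact hzc ▸ Subgroup.mem_zpowers y)
  obtain ⟨a, x, j, r, ha, -, hgen, hxr, hr4⟩ :=
    Cfsg.Agent.Lib.Thompson.exists_inverting_of_normal_abelian_cyclic hG hn hnc
  set N := 2 + j with hN
  have hd : ∀ i : ℤ, a ^ i = 1 ↔ (2 : ℤ) ^ N ∣ i := fun i => by
    rw [← orderOf_dvd_iff_zpow_eq_one, ha]; norm_num
  set z := a ^ (2 ^ (N - 1) : ℕ) with hz
  have hz2 : z ^ 2 = 1 := by
    rw [hz, ← pow_mul, ← pow_succ, show N - 1 + 1 = N by omega, ← ha, pow_orderOf_eq_one]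
  have hz1 : z ≠ 1 := fun h => by
    have h' := orderOf_dvd_of_pow_eq_one h
    rw [ha] at h'
    have := (Nat.pow_dvd_pow_iff_le_right (by norm_num)).1 h'
    omega
  -- the involutions of `zpowers a`
  have hinv2 : ∀ w ∈ Subgroup.zpowers a, w ^ 2 = 1 → w = 1 ∨ w = z := by
    intro w hw hw2
    obtain ⟨i, rfl⟩ := hw
    rw [← zpow_natCast, ← zpow_mul, hd] at hw2
    obtain ⟨c, hc⟩ := hw2
    have hNpow : (2 : ℤ) ^ N = 2 * 2 ^ (N - 1) := by rw [← pow_succ']; congr 1; omega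
    rw [hNpow] at hc
    have hi : i = 2 ^ (N - 1) * c := by push_cast at hc; linarith
    rcases Int.even_or_odd' c with ⟨d, rfl | rfl⟩
    · left
      show a ^ i = 1
      rw [hd, hNpow, hi]; exact ⟨d, by ring⟩
    · right
      show a ^ i = z
      rw [hi, hz, ← zpow_natCast, ← mul_inv_eq_one, ← zpow_neg, ← zpow_add, hd, hNpow]
      exact ⟨d, by push_cast; ring⟩
  have hCn : (Subgroup.zpowers a).Normal := by
    constructor
    intro w hw g
    obtain ⟨i, rfl⟩ := hw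
    have key : g * a * g⁻¹ ∈ Subgroup.zpowers a := by
      rcases hgen g with h | h
      · exact mul_mem (mul_mem h (Subgroup.mem_zpowers a)) (inv_mem h)
      · obtain ⟨k, hk⟩ := h
        have hk' : a ^ k = g * x⁻¹ := hk
        have hg : g = a ^ k * x := by rw [hk']; group
        rw [hg, show a ^ k * x * a * (a ^ k * x)⁻¹ = a ^ k * (x * a * x⁻¹) * (a ^ k)⁻¹ by group, hxr]
        exact mul_mem (mul_mem (zpow_mem (Subgroup.mem_zpowers a) _) (zpow_mem (Subgroup.mem_zpowers a) _))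
          (inv_mem (zpow_mem (Subgroup.mem_zpowers a) _))
    show g * a ^ i * g⁻¹ ∈ _
    rw [← conj_zpow]
    exact zpow_mem key i
  have hzmem : z ∈ Subgroup.zpowers a := pow_mem (Subgroup.mem_zpowers a) _
  have hzc : ∀ g : G, g * z = z * g := fun g => by
    rcases hinv2 _ (hCn.conj_mem z hzmem g) (by rw [conj_pow, hz2, mul_one, mul_inv_cancel]) with h | h
    · exact absurd (conj_eq_one_iff.1 h) hz1
    · exact mul_inv_eq_iff_eq_mul.1 h
  have hfree : ∀ w : V, ρ z w = w → w = 0 := fun w hw => free_of_central hinj hirr hz1 hzc hw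
  -- the stabilisers meet `zpowers a` trivially
  have hmeet : ∀ v : V, v ≠ 0 → ∀ g ∈ Subgroup.zpowers a, ρ g v = v → g = 1 := by
    intro v hv g hg hgv
    by_contra hg1
    obtain ⟨k, hk⟩ := IsPGroup.iff_orderOf.1 hG g
    obtain ⟨m, rfl⟩ := Nat.exists_eq_succ_of_ne_zero (fun h : k = 0 => hg1 (by
      rw [h, pow_zero, orderOf_eq_one_iff] at hk; exact hk))
    rcases hinv2 (g ^ 2 ^ m) (pow_mem hg _) (by rw [← pow_mul, ← pow_succ, ← hk, pow_orderOf_eq_one]) with h | h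
    · have := orderOf_dvd_of_pow_eq_one h
      rw [hk] at this
      have := (Nat.pow_dvd_pow_iff_le_right (by norm_num : 1 < 2)).1 this
      omega
    · exact hv (hfree v (h ▸ fixed_pow ρ hgv _))
  have houtprod : ∀ g h : G, g ∉ Subgroup.zpowers a → h ∉ Subgroup.zpowers a → h⁻¹ * g ∈ Subgroup.zpowers a := by
    intro g h hg hh
    have h1 := (hgen g).resolve_left hg
    have h2 := (hgen h).resolve_left hh
    have h3 : x⁻¹ * (h * x⁻¹)⁻¹ * (g * x⁻¹) * x = h⁻¹ * g := by group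
    rw [← h3]
    have h4 := hCn.conj_mem _ (mul_mem (inv_mem h2) h1) x⁻¹
    simpa [mul_assoc] using h4
  -- a nonzero vector with a nontrivial stabiliser
  obtain ⟨v₀, hv₀, t, htv, ht1⟩ : ∃ v : V, v ≠ 0 ∧ ∃ t : G, ρ t v = v ∧ t ≠ 1 := by
    by_contra h
    push_neg at h
    exact hS fun v hv g hg => h v hv g hg
  have htA : t ∉ Subgroup.zpowers a := fun h => ht1 (hmeet v₀ hv₀ t h htv)
  have hfixsq : ∀ v : V, v ≠ 0 → ∀ g : G, ρ g v = v → g ^ 2 = 1 := by
    intro v hv g hg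
    refine hmeet v hv _ ?_ (fixed_pow ρ hg 2)
    by_cases hgA : g ∈ Subgroup.zpowers a
    · exact pow_mem hgA 2
    · have h := houtprod g g⁻¹ hgA (fun h => hgA (inv_mem_iff.1 h))
      rwa [inv_inv, ← sq] at h
  have ht2 : t ^ 2 = 1 := hfixsq v₀ hv₀ t htv
  -- its action on `a`
  have htr : t * a * t⁻¹ = a ^ r := by
    obtain ⟨k, hk⟩ := (hgen t).resolve_left htA
    have hk' : a ^ k = t * x⁻¹ := hk
    have hg : t = a ^ k * x := by rw [hk']; group
    rw [hg, show a ^ k * x * a * (a ^ k * x)⁻¹ = a ^ k * (x * a * x⁻¹) * (a ^ k)⁻¹ by group, hxr]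
    group
  have hr2 : (2 : ℤ) ^ N ∣ r ^ 2 - 1 := by
    rw [← hd, sq, zpow_sub_one, mul_inv_eq_one]
    have h1 : t * (t * a * t⁻¹) * t⁻¹ = a ^ (r * r) := by rw [htr, ← conj_zpow, htr, ← zpow_mul]
    rw [← h1, show t * (t * a * t⁻¹) * t⁻¹ = t ^ 2 * a * (t ^ 2)⁻¹ by simp [sq, mul_assoc], ht2]
    group
  obtain ⟨w₄, hw₄⟩ := hr4
  -- conjugating `t` to `t * z`
  have hmove : (a ^ (2 ^ j : ℕ)) * t * (a ^ (2 ^ j : ℕ))⁻¹ = t * z := by
    have h1 : t * a ^ (-((2 : ℤ) ^ j)) * t⁻¹ = a ^ (r * -((2 : ℤ) ^ j)) := by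
      rw [← conj_zpow, htr, ← zpow_mul]
    have h2 : (a ^ (2 ^ j : ℕ)) * t * (a ^ (2 ^ j : ℕ))⁻¹ = a ^ ((2 : ℤ) ^ j * (1 - r)) * t := by
      rw [show (2 : ℤ) ^ j * (1 - r) = (2 : ℤ) ^ j + r * -((2 : ℤ) ^ j) by ring, zpow_add, ← h1,
        show (a ^ (2 ^ j : ℕ)) = a ^ ((2 : ℤ) ^ j) by rw [← zpow_natCast]; norm_num, zpow_neg]
      group
    rw [h2, hzc t, hz, ← zpow_natCast]
    congr 1
    rw [← mul_inv_eq_one, ← zpow_neg, ← zpow_add, hd, hN, pow_add, show 2 + j - 1 = j + 1 by omega]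
    refine ⟨-w₄, ?_⟩
    push_cast
    rw [pow_succ]
    linear_combination (-(2 : ℤ) ^ j) * hw₄
  have hVc : ∀ y : G, y ∉ Subgroup.zpowers a → y ^ 2 = 1 →
      Nat.card V = Nat.card (fixedOf ρ ({y} : Set G)) ^ 2 := by
    intro y hyA hy2
    obtain ⟨k, hk⟩ : y * t⁻¹ ∈ Subgroup.zpowers a := by
      have h := houtprod t⁻¹ y⁻¹ (fun h => htA (inv_mem_iff.1 h)) (fun h => hyA (inv_mem_iff.1 h))
      rwa [inv_inv] at h
    have hyeq : y = a ^ k * t := by
      have hk' : a ^ k = y * t⁻¹ := hk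
      rw [hk']; group
    have huy : (a ^ (2 ^ j : ℕ)) * y * (a ^ (2 ^ j : ℕ))⁻¹ = y * z := by
      rw [hyeq, show (a ^ (2 ^ j : ℕ)) * (a ^ k * t) * (a ^ (2 ^ j : ℕ))⁻¹ =
        a ^ k * ((a ^ (2 ^ j : ℕ)) * t * (a ^ (2 ^ j : ℕ))⁻¹) by group, hmove, mul_assoc]
    have h := card_eq_fixed_pow ρ hcop (⊤ : AddSubgroup V) (u := a ^ (2 ^ j : ℕ)) (y := y) (e := z)
      (fun w _ => trivial) (fun w _ => trivial) (fun w _ => trivial) (hzc y) (hzc _) huy hy2 hz2 hfree
    rwa [top_inf_eq, Nat.card_congr AddSubgroup.topEquiv.toEquiv] at h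
  set c := Nat.card (fixedOf ρ ({t} : Set G)) with hcdef
  have hV : Nat.card V = c ^ 2 := hVc t htA ht2
  -- count the involutions
  haveI := Fintype.ofFinite V
  haveI := Fintype.ofFinite G
  let I : Finset G := Finset.univ.filter (fun y => y ∉ Subgroup.zpowers a ∧ y ^ 2 = 1)
  have hsle : ∀ v : V, v ≠ 0 → ∀ g h : G, ρ g v = v → g ≠ 1 → ρ h v = v → h ≠ 1 → g = h := by
    intro v hv g h hg hg1 hh hh1
    refine (inv_mul_eq_one.1 (hmeet v hv (h⁻¹ * g) ?_ ?_)).symm
    · exact houtprod g h (fun e => hg1 (hmeet v hv g e hg)) (fun e => hh1 (hmeet v hv h e hh))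
    · rw [rho_mul, hg, ← hh, rho_inv_cancel, hh]
  have hone : ∀ v : V, v ≠ 0 → (I.filter (fun y => ρ y v = v)).card = 1 := by
    intro v hv
    obtain ⟨g, hg, hg1⟩ : ∃ g, ρ g v = v ∧ g ≠ 1 := by
      by_contra h
      push_neg at h
      refine hS (semi_of_card_one ρ hhalf ?_)
      rw [← hhalf v hv, Subgroup.card_eq_one, Subgroup.eq_bot_iff_forall]
      exact fun g hg => h g hg
    refine Finset.card_eq_one.2 ⟨g, ?_⟩
    ext y
    simp only [I, Finset.mem_filter, Finset.mem_univ, true_and, Finset.mem_singleton]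
    constructor
    · rintro ⟨⟨hyA, -⟩, hyv⟩
      exact hsle v hv y g hyv (fun e => hyA (e ▸ one_mem _)) hg hg1
    · rintro rfl
      exact ⟨⟨fun e => hg1 (hmeet v hv y e hg), hfixsq v hv y hg⟩, hg⟩
  have hdc := Finset.sum_card_bipartiteAbove_eq_sum_card_bipartiteBelow
    (s := (Finset.univ.erase (0 : V))) (t := I) (fun v y => ρ y v = v)
  have hlhs : ∀ v ∈ Finset.univ.erase (0 : V),
      (Finset.bipartiteAbove (fun v y => ρ y v = v) I v).card = 1 := fun v hv => by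
    rw [Finset.bipartiteAbove]; exact hone v (Finset.ne_of_mem_erase hv)
  have hrhs : ∀ y ∈ I, (Finset.bipartiteBelow (fun v y => ρ y v = v) (Finset.univ.erase (0 : V)) y).card = c - 1 := by
    intro y hy
    obtain ⟨hyA, hy2⟩ := (Finset.mem_filter.1 hy).2
    have hcy : Nat.card (fixedOf ρ ({y} : Set G)) = c :=
      Nat.pow_left_injective (two_ne_zero) ((hVc y hyA hy2).symm.trans hV)
    have h1 : (Finset.univ.filter (fun v : V => ρ y v = v)).card = c := by
      rw [← hcy, Nat.card_eq_fintype_card]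
      exact (Fintype.card_of_subtype _ fun v => by simp [mem_fixedOf]).symm
    rw [Finset.bipartiteBelow, Finset.filter_erase, Finset.card_erase_of_mem (by simp), h1]
  rw [Finset.sum_congr rfl hlhs, Finset.sum_congr rfl hrhs, Finset.sum_const, Finset.sum_const,
    Finset.card_erase_of_mem (Finset.mem_univ _), Finset.card_univ, ← Nat.card_eq_fintype_card, hV] at hdc
  simp only [smul_eq_mul, mul_one] at hdc
  have hc2 : 2 ≤ c := by
    haveI : Nontrivial (fixedOf ρ ({t} : Set G)) :=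
      ⟨⟨v₀, fun k hk => by rw [Set.mem_singleton_iff.1 hk]; exact htv⟩, 0, fun e => hv₀ (congrArg Subtype.val e)⟩
    exact Finite.one_lt_card
  have hI : I.card = c + 1 := by
    obtain ⟨c', hc'⟩ : ∃ c', c = c' + 1 := ⟨c - 1, by omega⟩
    have h' : (c' + 2) * c' = I.card * c' := by
      rw [hc', Nat.add_sub_cancel] at hdc
      rw [← hdc]
      have : (c' + 1) ^ 2 = (c' + 2) * c' + 1 := by ring
      omega
    have := Nat.eq_of_mul_eq_mul_right (by omega : 0 < c') h'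
    omega
  -- the number of involutions
  have hbij : I.card = (Finset.univ.filter (fun w => w ∈ Subgroup.zpowers a ∧ (w * t) ^ 2 = 1)).card := by
    refine Finset.card_bij (fun y _ => y * t⁻¹) (fun y hy => ?_) (fun y _ y' _ h => mul_right_cancel h) (fun w hw => ?_)
    · obtain ⟨hyA, hy2⟩ := (Finset.mem_filter.1 hy).2
      refine Finset.mem_filter.2 ⟨Finset.mem_univ _, ?_, by rw [inv_mul_cancel_right]; exact hy2⟩
      have h := houtprod t⁻¹ y⁻¹ (fun h => htA (inv_mem_iff.1 h)) (fun h => hyA (inv_mem_iff.1 h))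
      rwa [inv_inv] at h
    · obtain ⟨hwA, hw2⟩ := (Finset.mem_filter.1 hw).2
      refine ⟨w * t, Finset.mem_filter.2 ⟨Finset.mem_univ _, fun h => htA ?_, hw2⟩, mul_inv_cancel_right w t⟩
      have := mul_mem (inv_mem hwA) h
      rwa [inv_mul_cancel_left] at this
  have hwt : ∀ k : ℤ, (a ^ k * t) ^ 2 = a ^ (k + r * k) := fun k => by
    rw [sq, zpow_add, show a ^ (r * k) = t * a ^ k * t⁻¹ by rw [← conj_zpow, htr, ← zpow_mul]]
    have htinv : t⁻¹ = t := inv_eq_of_mul_eq_one_left (by rw [← sq]; exact ht2)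
    rw [htinv]; group
  obtain ⟨k, hk1, hck⟩ : ∃ k, 1 ≤ k ∧ c = q ^ k := by
    have hVq : Nat.card V = q ^ Module.finrank (ZMod q) V := by
      rw [Module.natCard_eq_pow_finrank (K := ZMod q), Nat.card_zmod]
    obtain ⟨k, -, hk⟩ := (Nat.dvd_prime_pow (Fact.out : q.Prime)).1
      (show c ∣ q ^ Module.finrank (ZMod q) V by rw [← hVq, hV]; exact dvd_pow_self c two_ne_zero)
    exact ⟨k, Nat.one_le_iff_ne_zero.2 (fun h => by rw [h, pow_zero] at hk; omega), hk⟩
  have hq3 : 3 ≤ q := lt_of_le_of_ne (Fact.out : q.Prime).two_le (Ne.symm hq)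
  have hGcard : Nat.card G = 2 ^ (N + 1) := by
    rw [← (Subgroup.zpowers a).card_mul_index, Nat.card_zpowers, ha, pow_succ]
    congr 1
    refine Subgroup.index_eq_two_iff.2 ⟨t, fun g => ?_⟩
    by_cases hgA : g ∈ Subgroup.zpowers a
    · refine Or.inr ⟨hgA, fun h => htA ?_⟩
      have := mul_mem (inv_mem hgA) h
      rwa [inv_mul_cancel_left] at this
    · refine Or.inl ⟨?_, hgA⟩
      have h := houtprod t g⁻¹ htA (fun h => hgA (inv_mem_iff.1 h))
      rwa [inv_inv] at h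
  have hfinish : ∀ M : ℕ, I.card = 2 ^ M → k = 1 ∧ q = 2 ^ M - 1 ∧ Nat.card V = q ^ 2 := by
    intro M hM
    have h : q ^ k + 1 = 2 ^ M := by rw [← hck, ← hI, hM]
    have hk : k = 1 := pow_add_one_two hq3 ((Fact.out : q.Prime).odd_of_ne_two hq) hk1 h
    subst hk
    rw [pow_one] at h hck
    exact ⟨rfl, by omega, by rw [hV, hck]⟩
  have h22 : (2 : ℤ) ^ N = 4 * 2 ^ j := by rw [hN, pow_add]; norm_num
  have hdih : (2 : ℤ) ^ N ∣ r + 1 → Nat.card V = q ^ 2 ∧ ∃ m : ℕ, q = 2 ^ m - 1 ∧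
      (Nonempty (G ≃* DihedralGroup (2 ^ m)) ∨ (Cfsg.IsQuasiDihedral G ∧ Nat.card G = 2 ^ (m + 2))) := by
    intro h
    have hIN : I.card = 2 ^ N := by
      rw [hbij, ← ha, ← Nat.card_zpowers, Nat.card_eq_fintype_card, Fintype.card_subtype]
      congr 1
      ext w
      simp only [Finset.mem_filter, Finset.mem_univ, true_and, and_iff_left_iff_imp]
      rintro ⟨i, rfl⟩
      rw [hwt, hd, show i + r * i = (r + 1) * i by ring]
      exact dvd_mul_of_dvd_left h i
    obtain ⟨-, hqm, hVq⟩ := hfinish N hIN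
    refine ⟨hVq, N, hqm, Or.inl ?_⟩
    have hti : t * a * t⁻¹ = a⁻¹ := by
      rw [htr, ← mul_inv_eq_one, inv_inv, ← zpow_add_one, hd]; exact h
    obtain ⟨e⟩ := Cfsg.Agent.Lib.Involution.iso_dihedral (K := (⊤ : Subgroup G)) (a := a) (b := t)
      (Subgroup.mem_top _) (Subgroup.mem_top _) ha (by rw [← sq]; exact ht2) htA hti
      (by rw [Subgroup.card_top, hGcard, pow_succ, mul_comm])
    exact ⟨Subgroup.topEquiv.symm.trans e⟩
  rcases Cfsg.Agent.Lib.Thompson.sq_eq_one_mod_two_pow (by omega : 2 ≤ N) hr2 with h | h | h | h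
  · obtain ⟨c', hc'⟩ := h
    rw [h22, mul_assoc] at hc'
    omega
  · exact hdih h
  · obtain ⟨c', hc'⟩ := h
    have hne : j = 0 := by
      by_contra hj
      obtain ⟨i, rfl⟩ := Nat.exists_eq_succ_of_ne_zero hj
      rw [h22, show N - 1 = i + 2 by omega, pow_succ (2 : ℤ) i, mul_assoc] at hc'
      rw [pow_add] at hc'
      norm_num at hc'
      omega
    subst hne
    rw [h22, show N - 1 = 1 by omega] at hc'
    norm_num at hc'
    -- the case of order four coincides with the dihedral case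
    have h' : (2 : ℤ) ^ N ∣ r + 1 := by rw [h22]; exact ⟨c' + 1, by norm_num; linarith⟩
    exact hdih h'
  · -- semidihedral
    obtain ⟨c', hc'⟩ := h
    have hj : 1 ≤ j := by
      by_contra hj
      have : j = 0 := by omega
      subst this
      rw [h22, show N - 1 = 1 by omega] at hc'
      norm_num at hc'
      omega
    have hNm : (2 : ℤ) ^ N = 2 * 2 ^ (N - 1) := by rw [← pow_succ']; congr 1; omega
    have hr' : r + 1 = 2 ^ (N - 1) * (2 * c' + 1) := by rw [hNm] at hc'; linarith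
    have hIN : I.card = 2 ^ (N - 1) := by
      have hcard : Nat.card (Subgroup.zpowers (a ^ 2)) = 2 ^ (N - 1) := by
        rw [Nat.card_zpowers, orderOf_pow' a two_ne_zero, ha, hN, pow_add,
          show Nat.gcd (2 ^ 2 * 2 ^ j) 2 = 2 from Nat.gcd_eq_right (Dvd.intro (2 * 2 ^ j) (by ring)),
          show 2 + j - 1 = 1 + j by omega, pow_add]
        omega
      rw [hbij, ← hcard, Nat.card_eq_fintype_card, Fintype.card_subtype]
      congr 1
      ext w
      simp only [Finset.mem_filter, Finset.mem_univ, true_and]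
      constructor
      · rintro ⟨⟨i, rfl⟩, hw⟩
        rw [hwt, hd, show i + r * i = (r + 1) * i by ring, hr', hNm, mul_assoc, mul_comm (2 : ℤ)] at hw
        have h2i : (2 : ℤ) ∣ (2 * c' + 1) * i := (mul_dvd_mul_iff_left (pow_ne_zero _ two_ne_zero)).1 hw
        obtain ⟨d, rfl⟩ : (2 : ℤ) ∣ i := by
          have e : i = (2 * c' + 1) * i - 2 * (c' * i) := by ring
          rw [e]; exact dvd_sub h2i (Dvd.intro _ rfl)
        exact ⟨d, by show (a ^ 2) ^ d = a ^ (2 * d); rw [zpow_mul]; norm_num⟩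
      · rintro ⟨d, rfl⟩
        have e : (a ^ 2) ^ d = a ^ (2 * d) := by rw [zpow_mul]; norm_num
        show (a ^ 2) ^ d ∈ _ ∧ ((a ^ 2) ^ d * t) ^ 2 = 1
        rw [e, hwt, hd, show 2 * d + r * (2 * d) = (r + 1) * 2 * d by ring, hr', hNm]
        exact ⟨zpow_mem (Subgroup.mem_zpowers a) _, ⟨(2 * c' + 1) * d, by ring⟩⟩
    obtain ⟨-, hqm, hVq⟩ := hfinish (N - 1) hIN
    refine ⟨hVq, N - 1, hqm, Or.inr ⟨⟨N, by omega, hGcard, a, t, ha, ?_, ?_⟩, by rw [hGcard]; congr 1; omega⟩⟩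
    · exact orderOf_eq_prime ht2 ht1
    · have h1 : 1 ≤ 2 ^ (N - 1) := Nat.one_le_pow _ _ (by norm_num)
      rw [htr, ← zpow_natCast, Nat.cast_sub h1, ← mul_inv_eq_one, ← zpow_neg, ← zpow_add, hd, hNm]
      push_cast
      exact ⟨c', by linarith⟩

end Cfsg.Agent.Lib.HalfTransP
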